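import Cfsg.Agent.Comp.H3024.Spec
import Cfsg.Agent.Comp.U33a.Ext
import Cfsg.Agent.Comp.U33b.Ext
import Cfsg.Agent.Amalg.UGlue

/-! The group `PSU₃(3)`: order and some character degrees. -/

set_option autoImplicit false
set_option maxRecDepth 100000

namespace Cfsg.Agent.Comp.U33

open Cfsg.Agent.Spec Matrix

noncomputable section

variable {F : Type*} [Field F]

theorem exists_sem [Fintype F] (hF : Fintype.card F = 9) :
    ∃ dec : ℕ → F, nOps.Sem dec ∧ CharP F 3 := by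
  have hc : CharP F 3 := charP_of_card_eq_pow (n := 2) Nat.prime_three hF
  classical
  obtain ⟨a, ha⟩ := FiniteField.isSquare_neg_one_iff.2 (show Fintype.card F % 4 ≠ 3 by
    rw [hF]; decide)
  exact ⟨_, nOps_sem ha.symm, hc⟩

def σ : Fin 3 ≃ Fin S.d := Equiv.refl (Fin 3)

def g1 (dec : ℕ → F) : ℕ → GL (Fin 3) F := glGens dec S σ As Bs

def K (dec : ℕ → F) : Subgroup (GL (Fin 3) F) := Subgroup.closure (g1 dec '' {j | j < 2})

def ιS : SU 3 F 3 →* GL (Fin 3) F := SpecialLinearGroup.toGL.comp (SU 3 F 3).subtype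

theorem ιS_inj : Function.Injective (ιS (F := F)) :=
  SpecialLinearGroup.toGL_injective.comp Subtype.val_injective

def m3 (A a b c : ℕ) : ℕ := nOps.mul (nOps.mul (entC S A 0 a) (entC S A 1 b)) (entC S A 2 c)

theorem hdet : all1 (fun j => Nat.beq
    (nOps.add (nOps.add (m3 (nth As j) 0 1 2) (m3 (nth As j) 1 2 0)) (m3 (nth As j) 2 0 1))
    (nOps.add (nOps.add (nOps.add (m3 (nth As j) 0 2 1) (m3 (nth As j) 1 0 2))
      (m3 (nth As j) 2 1 0)) 1)) 0 2 = true := by decide +kernel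

theorem K_le [CharP F 3] {dec : ℕ → F} (h : nOps.Sem dec) : K dec ≤ (ιS (F := F)).range := by
  refine (Subgroup.closure_le _).2 ?_
  rintro _ ⟨j, hj, rfl⟩
  have hj' : j < 0 + 2 := hj
  have e := glGens_val h σ hinv j hj
  have d := congrArg dec (beq_true.1 (all1_spec hdet j (Nat.zero_le _) hj'))
  simp only [m3, h.add, h.mul, h.one] at d
  have u := all1_spec huni j (Nat.zero_le _) hj'
  simp only [band_true] at u
  have u3 := mmOne_spec h σ u.2.2
  rw [trChk_spec dec σ u.1, pwChk_spec h σ u.2.1] at u3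
  have hd : (mat dec S σ (nth As j)).det = 1 := by
    rw [det_fin_three]
    simp only [mat_apply, show (σ 0).1 = 0 from rfl, show (σ 1).1 = 1 from rfl,
      show (σ 2).1 = 2 from rfl]
    linear_combination d
  have : Fact (Nat.Prime 3) := ⟨Nat.prime_three⟩
  exact ⟨⟨⟨_, hd⟩, (mem_SU_iff 3 1 _).2 u3⟩, Units.ext e.symm⟩

def ga (dec : ℕ → F) (j : ℕ) : GL (Fin 3) F × Equiv.Perm (Fin 63) :=
  (g1 dec j, U33a.J.pg 63 U33a.ci j)

def gb (dec : ℕ → F) (j : ℕ) : GL (Fin 3) F × Equiv.Perm (Fin 756) :=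
  (g1 dec j, U33b.J.pg 756 U33b.ci j)

theorem mda {dec : ℕ → F} (h : nOps.Sem dec) :
    U33a.J.Model ((vecLst h σ hl hp).sum (finLst 63 (by norm_num)) U33a.hn) (ga dec) ⊤ :=
  lp_model h σ _ _ hl hp U33a.hc U33a.ha _ (glGens_val h σ hinv)

theorem mdb {dec : ℕ → F} (h : nOps.Sem dec) :
    U33b.J.Model ((vecLst h σ hl hp).sum (finLst 756 (by norm_num)) U33b.hn) (gb dec) ⊤ :=
  lp_model h σ _ _ hl hp U33b.hc U33b.ha _ (glGens_val h σ hinv)

omit [Field F] in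
theorem vec_eq (dec : ℕ → F) {a b c : ℕ} (ha : a < 9) (hb : b < 9) (hc : c < 9) :
    vec dec S σ (a + (16 * b + 256 * c)) = ![dec a, dec b, dec c] := by
  have key : ∀ x s : ℕ, lk[15, x, s] = x / 2 ^ s % 16 := fun x s => by
    show (x >>> s) &&& (2 ^ 4 - 1) = _
    rw [Nat.and_two_pow_sub_one_eq_mod, Nat.shiftRight_eq_div_pow]
  funext i
  fin_cases i
  · exact congrArg dec ((key _ 0).trans (by omega))
  · exact congrArg dec ((key _ 4).trans (by omega))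
  · exact congrArg dec ((key _ 8).trans (by omega))

theorem exists_pt [Fintype F] (hF : Fintype.card F = 9) {dec : ℕ → F} (h : nOps.Sem dec)
    (v : Fin 3 → F) (hv : hermForm 3 F 3 v v = 1) : ∃ i, i < 252 ∧ vec dec S σ (P.c i) = v ∧
      inOrb U33a.J.E U33a.L0 (U33a.J.E.k * (63 + i)) = true ∧
      (v 0 = 0 → inOrb U33a.J.E U33a.L1 (U33a.J.E.k * (63 + i)) = true) := by
  obtain ⟨a, ha, ea⟩ := h.surj hF (v 0)
  obtain ⟨b, hb, eb⟩ := h.surj hF (v 1)
  obtain ⟨c, hc, ec⟩ := h.surj hF (v 2)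
  have u := all1_spec (all1_spec (all1_spec U33a.up a (Nat.zero_le _) ha) b (Nat.zero_le _) hb) c
    (Nat.zero_le _) hc
  have hn : nOps.add (nOps.add (powC nOps a 4) (powC nOps b 4)) (powC nOps c 4) = 1 := by
    apply h.inj
    · show _ % 3 + 3 * (_ % 3) < 9
      omega
    · decide
    · rw [h.add, h.add, dec_powC h, dec_powC h, dec_powC h, h.one, ea, eb, ec, ← hv, hermForm,
        Fin.sum_univ_three]
      ring
  unfold U33a.upAt at u
  rw [beq_true.2 hn] at u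
  obtain ⟨i, hi, e⟩ := anyL_spec u
  simp only [band_true, beq_true] at e
  refine ⟨i, List.mem_range.1 hi, ?_, e.2.1, fun h0 => ?_⟩
  · rw [e.1]
    refine (vec_eq dec ha hb hc).trans ?_
    rw [ea, eb, ec]
    funext i
    fin_cases i <;> rfl
  · obtain rfl : a = 0 := h.inj _ _ ha (by decide) (by rw [ea, h0, h.zero])
    exact e.2.2

theorem le_K [Fintype F] (hF : Fintype.card F = 9) [CharP F 3] {dec : ℕ → F} (h : nOps.Sem dec) :
    (ιS (F := F)).range ≤ K dec := by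
  have hK : (U33a.J.G (ga dec)).map (MonoidHom.fst _ _) = K dec := map_fst_G
  have hc := U33a.chain0 (mda h)
  obtain ⟨b0, b1, p0, p1⟩ := U33a.hb0
  have pt : ∀ i, (mda h).M.pt (U33a.J.E.k * (63 + i)) = PS.l (vec dec S σ (P.c i)) := fun i => by
    rw [Job.Model.M, Lst.pts_pt, Lst.sum_l (by omega), Nat.add_sub_cancel_left]
    rfl
  have e0 : (mda h).M.pt U33a.L0.b = PS.l ![1, 0, 0] := by
    rw [b0, pt, p0, ← h.one, ← h.zero]
    exact congrArg PS.l (vec_eq dec (a := 1) (b := 0) (c := 0) (by decide) (by decide) (by decide))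
  have e1 : (mda h).M.pt U33a.L1.b = PS.l ![0, 1, 0] := by
    rw [b1, pt, p1, ← h.one, ← h.zero]
    exact congrArg PS.l (vec_eq dec (a := 0) (b := 1) (c := 0) (by decide) (by decide) (by decide))
  have lift : ∀ c ∈ GpL (U33a.J.el (ga dec)) [U33a.L0, U33a.L1],
      c.1 ∈ K dec ∧ ∃ s : SU 3 F 3, ιS s = c.1 := fun c hc' => by
    have : c.1 ∈ K dec := hK ▸ ⟨c, U33a.GpL_eq (ga dec) ▸ hc', rfl⟩
    exact ⟨this, K_le h this⟩
  have s2 : ∀ s : SU 3 F 3, ιS s • (![1, 0, 0] : Fin 3 → F) = ![1, 0, 0] →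
      ιS s • (![0, 1, 0] : Fin 3 → F) = ![0, 1, 0] → s = 1 := fun s h0 h1 => by
    have h0' : s.1.1 *ᵥ ![1, 0, 0] = ![1, 0, 0] := h0
    have h1' : s.1.1 *ᵥ ![0, 1, 0] = ![0, 1, 0] := h1
    have a0 : hermForm 3 F 3 (s.1.1 *ᵥ ![1, 0, 0]) (s.1.1 *ᵥ ![0, 0, 1]) = _ := s.2 _ _
    have a1 : hermForm 3 F 3 (s.1.1 *ᵥ ![0, 1, 0]) (s.1.1 *ᵥ ![0, 0, 1]) = _ := s.2 _ _
    have d := s.1.2
    rw [h0'] at a0
    rw [h1'] at a1
    have t0 := congrFun h0'
    have t1 := congrFun h1'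
    simp [hermForm, Fin.sum_univ_three, mulVec, dotProduct] at a0 a1
    simp [Fin.forall_fin_succ, Fin.sum_univ_three, mulVec, dotProduct] at t0 t1
    rw [det_fin_three] at d
    apply Subtype.ext
    ext i j
    fin_cases i <;> fin_cases j <;> simp_all
  have s1 : ∀ s : SU 3 F 3, ιS s • (![1, 0, 0] : Fin 3 → F) = ![1, 0, 0] → ιS s ∈ K dec :=
    fun s h0 => by
    have h0' : s.1.1 *ᵥ ![1, 0, 0] = ![1, 0, 0] := h0
    have a0 : hermForm 3 F 3 (s.1.1 *ᵥ ![1, 0, 0]) (s.1.1 *ᵥ ![0, 1, 0]) = _ := s.2 _ _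
    have a1 : hermForm 3 F 3 (s.1.1 *ᵥ ![0, 1, 0]) (s.1.1 *ᵥ ![0, 1, 0]) = _ := s.2 _ _
    rw [h0'] at a0
    obtain ⟨i, -, ei, -, o⟩ := exists_pt hF h _ (a1.trans (by simp [hermForm, Fin.sum_univ_three]))
    obtain ⟨t, ht, et⟩ := inOrb_spec (o (by simpa [hermForm, Fin.sum_univ_three] using a0))
    have w := hc.2.1.walk t ht
    have wm := walkE_mem hc.2.1.hlo hc.2.1.mem U33a.L1.fuel (U33a.L1.o U33a.J.E t)
    have wf := (hc.1.stab _ (hc.1.sub wm)).2 wm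
    obtain ⟨k1, c, ec⟩ := lift _ (hc.1.sub wm)
    rw [e1] at w
    rw [e0] at wf
    conv_lhs at w => rw [et, pt, ei, PS.smul_l]
    rw [et] at ec wf k1
    have := s2 (c * s) (by rw [map_mul, mul_smul, h0, ec]; exact PS.l_inj wf)
      (by rw [map_mul, mul_smul, ec]; exact PS.l_inj w)
    rw [eq_inv_of_mul_eq_one_right this, map_inv, ec]
    exact (K dec).inv_mem k1
  rintro _ ⟨s, rfl⟩
  have a0 : hermForm 3 F 3 (s.1.1 *ᵥ ![1, 0, 0]) (s.1.1 *ᵥ ![1, 0, 0]) = _ := s.2 _ _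
  obtain ⟨i, -, ei, o, -⟩ := exists_pt hF h _ (a0.trans (by simp [hermForm, Fin.sum_univ_three]))
  obtain ⟨t, ht, et⟩ := inOrb_spec o
  have w := hc.1.walk t ht
  have wm := walkE_mem hc.1.hlo hc.1.mem U33a.L0.fuel (U33a.L0.o U33a.J.E t)
  obtain ⟨k1, c, ec⟩ := lift _ wm
  rw [e0] at w
  conv_lhs at w => rw [et, pt, ei, PS.smul_l]
  rw [et] at ec k1
  have := s1 (c * s) (by rw [map_mul, mul_smul, ec]; exact PS.l_inj w)
  rw [map_mul, ec] at this
  exact ((K dec).mul_mem_cancel_left k1).1 this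

theorem center_eq [Fintype F] (hF : Fintype.card F = 9) [CharP F 3] :
    Subgroup.center (SU 3 F 3) = ⊥ := by
  have : Fact (Fintype.card F = 3 ^ 2) := ⟨hF⟩
  have : Fact (Nat.Prime 3) := ⟨Nat.prime_three⟩
  rw [eq_bot_iff]
  intro z hz
  have e := Amalg.su3_center hz
  have d := Amalg.suM_det z
  rw [e, det_smul, det_one, mul_one, Fintype.card_fin] at d
  have : (Amalg.suM z 0 0 - 1) ^ 3 = 0 := by rw [sub_pow_char, d, one_pow, sub_self]
  rw [sub_eq_zero.1 (pow_eq_zero_iff (by norm_num) |>.1 this), one_smul] at e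
  exact Amalg.su_ext e

def isoK [Fintype F] (hF : Fintype.card F = 9) [CharP F 3] {dec : ℕ → F} (h : nOps.Sem dec) :
    PSU 3 F 3 ≃* K dec :=
  (((QuotientGroup.quotientMulEquivOfEq (center_eq hF)).trans QuotientGroup.quotientBot).trans
    (MonoidHom.ofInjective ιS_inj)).trans
      (MulEquiv.subgroupCongr (le_antisymm (le_K hF h) (K_le h)))

def isoA {dec : ℕ → F} (h : nOps.Sem dec) : U33a.J.G (ga dec) ≃* K dec :=
  (fstEquiv (mda h) (U33a.chain0 (mda h)) (U33a.GpL_eq _) U33a.hb).trans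
    (MulEquiv.subgroupCongr map_fst_G)

def isoB {dec : ℕ → F} (h : nOps.Sem dec) : U33b.J.G (gb dec) ≃* K dec :=
  (fstEquiv (mdb h) (U33b.chain0 (mdb h)) (U33b.GpL_eq _) U33b.hb).trans
    (MulEquiv.subgroupCongr map_fst_G)

theorem card_PSU33 [Fintype F] (hF : Fintype.card F = 9) : Nat.card (PSU 3 F 3) = 6048 := by
  obtain ⟨dec, h, _⟩ := exists_sem hF
  rw [Nat.card_congr ((isoK hF h).trans (isoA h).symm).toEquiv]
  exact U33a.card (mda h)

theorem degA {dec : ℕ → F} (h : nOps.Sem dec) :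
    14 ∈ charDegrees (U33a.J.G (ga dec)) ∧ 21 ∈ charDegrees (U33a.J.G (ga dec)) := by
  have := U33a.finite (mda h)
  have hi := lpChk_inv U33a.hc
  obtain ⟨χ, hχ, e⟩ := U33a.Sc.exists_irr' (J := U33a.J) (gen := ga dec) (MonoidHom.snd _ _)
    (ci := U33a.ci) (fun _ _ => rfl) hi.1 hi.2 U33a.sc1 U33a.sc2 (k := 0) (by decide)
  obtain ⟨χ', hχ', e'⟩ := U33a.Sc.exists_irr' (J := U33a.J) (gen := ga dec) (MonoidHom.snd _ _)
    (ci := U33a.ci) (fun _ _ => rfl) hi.1 hi.2 U33a.sc1 U33a.sc2 (k := 2) (by decide)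
  exact ⟨mem_charDegrees hχ e, mem_charDegrees hχ' e'⟩

theorem degB {dec : ℕ → F} (h : nOps.Sem dec) :
    ∃ d ∈ charDegrees (U33b.J.G (gb dec)), 6 ∣ d := by
  have := U33b.finite (mdb h)
  have hi := lpChk_inv U33b.hc
  let _ : MulAction (U33b.J.G (gb dec)) (Fin 756) :=
    MulAction.compHom _ ((MonoidHom.snd _ _).comp (U33b.J.G (gb dec)).subtype)
  obtain ⟨φ, hφ, h0, hs⟩ := exists_char_of_sub (U33b.J.gam (gb dec)) (U33b.J.gam_closure _)
    (a := fun j => img U33b.J.E.k U33b.J.E.m (nth U33b.J.E.cs j)) (fun j hj x => by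
      show ((U33b.J.gam (gb dec) j).1.2 x).1 = _
      rw [U33b.J.gam_val _ hj]
      exact Job.pg_val hi.1 (hi.2 j hj) x) U33b.sb (x0 := 0) (k0 := 0) (by norm_num) (by norm_num)
    U33b.v0
  have v0 := U33b.J.gam_val (gb dec) (j := 0) (by decide)
  have v1 := U33b.J.gam_val (gb dec) (j := 1) (by decide)
  have wm : ∀ w : List ℕ, (∀ i ∈ w, i < 2) → wp (gb dec) w ∈ U33b.J.G (gb dec) := fun w hw =>
    wp_mem fun i hi => Subgroup.subset_closure ⟨i, hw i hi, rfl⟩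
  have app : ∀ (w : List ℕ) (j : ℕ), wp (gb dec) (w ++ [j, j]) =
      gb dec j * gb dec j * wp (gb dec) w := fun w j => by
    induction w with
    | nil => simp [wp]
    | cons i w ih => rw [List.cons_append, wp, wp, ih, mul_assoc]
  have cj : ∀ (w : List ℕ) (j : ℕ), j < 2 → (∀ i ∈ w, i < 2) →
      U33b.J.relChk (j :: w) (w ++ [j, j]) = true →
      IsConj (U33b.J.gam (gb dec) j)⁻¹ ((U33b.J.gam (gb dec) j)⁻¹ ^ 2) := fun w j hj hw hr => by
    have e := (mdb h).rel hr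
    rw [app, wp] at e
    refine isConj_iff.2 ⟨⟨_, wm w hw⟩, Subtype.ext ?_⟩
    simp only [Subgroup.coe_mul, Subgroup.coe_inv, Subgroup.coe_pow, U33b.J.gam_val _ hj]
    rw [inv_pow, sq, eq_mul_inv_of_mul_eq e.symm]
    group
  have r3 := (mdb h).rel U33b.r3
  have r7 := (mdb h).rel U33b.r7
  simp only [wp, one_mul] at r3 r7
  obtain ⟨ψ, d, hψ, e, hd⟩ := exists_irr_six hφ h0 (u := (U33b.J.gam (gb dec) 0)⁻¹)
    (w := (U33b.J.gam (gb dec) 1)⁻¹)
    (by rw [inv_pow, inv_eq_one]; apply Subtype.ext; rw [Subgroup.coe_pow, v0]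
        simpa [pow_succ] using r3)
    (by rw [inv_pow, inv_eq_one]; apply Subtype.ext; rw [Subgroup.coe_pow, v1]
        simpa [pow_succ] using r7)
    (cj _ 0 (by norm_num) (by decide) U33b.rz) (cj _ 1 (by norm_num) (by decide) U33b.rg)
    (hs 0 (by decide) 3 U33b.n3) (hs 1 (by decide) 7 U33b.n7)
  exact ⟨d, mem_charDegrees hψ e, hd⟩

theorem deg_PSU33 [Fintype F] (hF : Fintype.card F = 9) :
    (∃ d ∈ charDegrees (PSU 3 F 3), 6 ∣ d) ∧ 14 ∈ charDegrees (PSU 3 F 3) ∧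
      21 ∈ charDegrees (PSU 3 F 3) := by
  obtain ⟨dec, h, _⟩ := exists_sem hF
  have ea := (isoK hF h).trans (isoA h).symm
  have eb := (isoK hF h).trans (isoB h).symm
  obtain ⟨d, hd, h6⟩ := degB h
  exact ⟨⟨d, charDegrees_of_surj eb.toMonoidHom eb.surjective hd, h6⟩,
    charDegrees_of_surj ea.toMonoidHom ea.surjective (degA h).1,
    charDegrees_of_surj ea.toMonoidHom ea.surjective (degA h).2⟩

end

end Cfsg.Agent.Comp.U33
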